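import Mathlib
import Cfsg.Prelude.Def_GeometricClasses

/-!
# Self-dual matrices of prime order over small fields (helper840)

* `charpoly_inv` : isometries of a non-degenerate bilinear form are conjugate to their inverses in the linear group, so
  far as the characteristic polynomial is concerned;
* `le_card_of_orbit` : `x ≠ 1`, `x ^ s = 1`, `s` prime, `x` an isometry of a non-degenerate bilinear form over `F`, every
  `0 < k < s` of the form `± |F|^j` modulo `s`: then `s - 1 ≤ dim`.
-/

set_option autoImplicit false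

namespace Cfsg.Agent.H840.EP

open Matrix Polynomial Cfsg Cfsg.Geo

variable {ι : Type} [Fintype ι] [DecidableEq ι] {F : Type} [Field F]

/-- the characteristic polynomial of the inverse of an isometry -/
theorem charpoly_inv {f : (ι → F) → (ι → F) → F} (hf : IsBilinearForm f) (hn : IsNondegenerateForm f) {x : GL ι F}
    (hx : ∀ u v, f ((x : Matrix ι ι F) *ᵥ u) ((x : Matrix ι ι F) *ᵥ v) = f u v) :
    ((x⁻¹ : GL ι F) : Matrix ι ι F).charpoly = (x : Matrix ι ι F).charpoly := by
  let B : (ι → F) →ₗ[F] (ι → F) →ₗ[F] F := LinearMap.mk₂ F f hf.add_left hf.smul_left hf.add_right hf.smul_right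
  have hB : ∀ u v, B u v = f u v := fun u v => rfl
  let J : Matrix ι ι F := LinearMap.toMatrix₂' F B
  have hJf : ∀ u v, u ⬝ᵥ (J *ᵥ v) = f u v := by
    intro u v
    have h1 : Matrix.toLinearMap₂' F J u v = u ⬝ᵥ (J *ᵥ v) := Matrix.toLinearMap₂'_apply' J u v
    rw [← h1]
    change Matrix.toLinearMap₂' F (LinearMap.toMatrix₂' F B) u v = f u v
    rw [Matrix.toLinearMap₂'_toMatrix']
    rfl
  have hdet : J.det ≠ 0 := by
    intro h0
    obtain ⟨v, hv, h1⟩ := Matrix.exists_mulVec_eq_zero_iff.2 h0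
    obtain ⟨u, hu⟩ := (hn v hv).1
    apply hu
    rw [← hJf, h1, dotProduct_zero]
  have hJx : (x : Matrix ι ι F)ᵀ * J * (x : Matrix ι ι F) = J := by
    have h1 : B.compl₁₂ (Matrix.toLin' (x : Matrix ι ι F)) (Matrix.toLin' (x : Matrix ι ι F)) = B := by
      apply LinearMap.ext₂
      intro u v
      rw [LinearMap.compl₁₂_apply, Matrix.toLin'_apply, Matrix.toLin'_apply]
      exact hx u v
    have h2 := LinearMap.toMatrix₂'_compl₁₂ (R := F) B (Matrix.toLin' (x : Matrix ι ι F))
      (Matrix.toLin' (x : Matrix ι ι F))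
    rw [h1, LinearMap.toMatrix'_toLin'] at h2
    exact h2.symm
  let U : GL ι F := Matrix.GeneralLinearGroup.mkOfDetNeZero J hdet
  have hU : (U : Matrix ι ι F) = J := rfl
  have h3 : ((x⁻¹ : GL ι F) : Matrix ι ι F) = ((U⁻¹ : GL ι F) : Matrix ι ι F) * (x : Matrix ι ι F)ᵀ * (U : Matrix ι ι F) := by
    have h4 : (x : Matrix ι ι F)ᵀ * J = J * ((x⁻¹ : GL ι F) : Matrix ι ι F) := by
      conv_rhs => rw [← hJx]
      rw [Matrix.mul_assoc, ← Units.val_mul, mul_inv_cancel, Units.val_one, Matrix.mul_one]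
    rw [hU, Matrix.mul_assoc, h4, ← Matrix.mul_assoc, ← hU, ← Units.val_mul, inv_mul_cancel, Units.val_one,
      Matrix.one_mul]
  rw [h3, Matrix.coe_units_inv, Matrix.charpoly_units_conj', Matrix.charpoly_transpose]

section

variable {K : Type*} [Field K]

theorem eig_iff {M : Matrix ι ι K} {c : K} : M.charpoly.IsRoot c ↔ ∃ v ≠ 0, M *ᵥ v = c • v := by
  rw [IsRoot.def, Matrix.eval_charpoly, ← Matrix.exists_mulVec_eq_zero_iff]
  constructor
  · rintro ⟨v, hv, h⟩
    refine ⟨v, hv, ?_⟩
    rw [Matrix.sub_mulVec, sub_eq_zero, Matrix.scalar_apply, ← Matrix.smul_one_eq_diagonal, Matrix.smul_mulVec,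
      Matrix.one_mulVec] at h
    exact h.symm
  · rintro ⟨v, hv, h⟩
    refine ⟨v, hv, ?_⟩
    rw [Matrix.sub_mulVec, sub_eq_zero, Matrix.scalar_apply, ← Matrix.smul_one_eq_diagonal, Matrix.smul_mulVec,
      Matrix.one_mulVec]
    exact h.symm

theorem eig_pow {M : Matrix ι ι K} {c : K} {v : ι → K} (h : M *ᵥ v = c • v) (k : ℕ) : (M ^ k) *ᵥ v = c ^ k • v := by
  induction k with
  | zero => rw [pow_zero, pow_zero, Matrix.one_mulVec, one_smul]
  | succ k ih => rw [pow_succ, ← Matrix.mulVec_mulVec, h, Matrix.mulVec_smul, ih, smul_smul, pow_succ, mul_comm]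

/-- a matrix of finite order prime to the characteristic with the only eigenvalue 1 is 1 -/
theorem eq_one_of_eig [IsAlgClosed K] {p : ℕ} [hp : Fact p.Prime] [CharP K p] {M : Matrix ι ι K} {s : ℕ}
    (hs : M ^ s = 1) (hsp : s.Coprime p) (h : ∀ c : K, M.charpoly.IsRoot c → c = 1) : M = 1 := by
  classical
  have hsplit := IsAlgClosed.splits M.charpoly
  have h1 : M.charpoly = (X - C 1) ^ Fintype.card ι := by
    have h2 := hsplit.eq_prod_roots_of_monic M.charpoly_monic
    have h3 : M.charpoly.roots = Multiset.replicate (Fintype.card ι) 1 := by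
      rw [Multiset.eq_replicate]
      refine ⟨?_, ?_⟩
      · rw [← hsplit.natDegree_eq_card_roots, M.charpoly_natDegree_eq_dim]
      · intro c hc
        exact h c (isRoot_of_mem_roots hc)
    rw [h2, h3, Multiset.map_replicate, Multiset.prod_replicate]
  have h2 : (M - 1) ^ Fintype.card ι = 0 := by
    have h3 := Matrix.aeval_self_charpoly M
    rw [h1, map_pow, map_sub, aeval_X, aeval_C, map_one] at h3
    exact h3
  obtain ⟨k, hk⟩ : ∃ k, Fintype.card ι ≤ p ^ k := ⟨Fintype.card ι, (Nat.lt_pow_self hp.out.one_lt).le⟩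
  have h3 : (M - 1) ^ p ^ k = 0 := by
    obtain ⟨d, hd⟩ := Nat.exists_eq_add_of_le hk
    rw [hd, pow_add, h2, zero_mul]
  rcases isEmpty_or_nonempty ι with hι | hι
  · exact Subsingleton.elim _ _
  have h4 : M ^ p ^ k = 1 := by
    have : CharP (Matrix ι ι K) p := inferInstance
    rw [sub_pow_char_pow_of_commute p k (Commute.one_right M), one_pow, sub_eq_zero] at h3
    exact h3
  have h5 : orderOf M ∣ 1 := by
    have h6 := Nat.dvd_gcd (orderOf_dvd_of_pow_eq_one hs) (orderOf_dvd_of_pow_eq_one h4)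
    rwa [Nat.Coprime.pow_right k hsp] at h6
  rwa [Nat.dvd_one, orderOf_eq_one_iff] at h5

end

theorem le_card_aux [Fintype F] (K : Type*) [Field K] [Algebra F K] [IsAlgClosed K] {f : (ι → F) → (ι → F) → F} (hf : IsBilinearForm f)
    (hn : IsNondegenerateForm f) {x : GL ι F}
    (hx : ∀ u v, f ((x : Matrix ι ι F) *ᵥ u) ((x : Matrix ι ι F) *ᵥ v) = f u v) {s : ℕ} (hs : s.Prime)
    (hsF : (s : F) ≠ 0) (hx1 : x ≠ 1) (hxs : x ^ s = 1)
    (ho : ∀ k < s, 0 < k → ∃ j, Fintype.card F ^ j % s = k ∨ (s - 1) * Fintype.card F ^ j % s = k) :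
    s - 1 ≤ Fintype.card ι := by
  classical
  obtain ⟨p, hp⟩ := CharP.exists F
  have hpp : p.Prime := (CharP.char_is_prime_or_zero F p).resolve_right (CharP.char_ne_zero_of_finite F p)
  have : Fact p.Prime := ⟨hpp⟩
  have : CharP K p := charP_of_injective_algebraMap (algebraMap F K).injective p
  obtain ⟨M, hM⟩ : ∃ M : Matrix ι ι K, M = (x : Matrix ι ι F).map (algebraMap F K) := ⟨_, rfl⟩
  have hMc : M.charpoly = (x : Matrix ι ι F).charpoly.map (algebraMap F K) := by rw [hM, Matrix.charpoly_map]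
  have hMs : M ^ s = 1 := by
    rw [hM, ← RingHom.mapMatrix_apply, ← map_pow, ← Units.val_pow_eq_pow_val, hxs, Units.val_one, map_one]
  have hM1 : M ≠ 1 := by
    intro h
    apply hx1
    apply Units.ext
    have h1 : (algebraMap F K).mapMatrix (x : Matrix ι ι F) = (algebraMap F K).mapMatrix 1 := by
      rw [map_one, ← h, hM]
      rfl
    exact Matrix.map_injective (algebraMap F K).injective h1
  have hsp : s.Coprime p := by
    rw [Nat.coprime_primes hs hpp]
    rintro rfl
    exact hsF (CharP.cast_eq_zero F s)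
  -- the eigenvalues
  have hsq : ∀ c : K, M.charpoly.IsRoot c → M.charpoly.IsRoot (c ^ Fintype.card F) := by
    intro c hc
    rw [IsRoot.def, hMc, eval_map_algebraMap] at hc ⊢
    have h1 : aeval c (expand F (Fintype.card F) (x : Matrix ι ι F).charpoly) =
        aeval (c ^ Fintype.card F) (x : Matrix ι ι F).charpoly := expand_aeval _ _ _
    rw [← h1, FiniteField.expand_card, map_pow, hc, zero_pow Fintype.card_ne_zero]
  have hinv : ∀ c : K, M.charpoly.IsRoot c → M.charpoly.IsRoot c⁻¹ := by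
    intro c hc
    obtain ⟨v, hv, h⟩ := eig_iff.1 hc
    have hc0 : c ≠ 0 := by
      rintro rfl
      have h1 := eig_pow h s
      rw [hMs, Matrix.one_mulVec, zero_pow hs.ne_zero, zero_smul] at h1
      exact hv h1
    have hMi : M.charpoly = (((x⁻¹ : GL ι F) : Matrix ι ι F).map (algebraMap F K)).charpoly := by
      refine hMc.trans ?_
      rw [Matrix.charpoly_map, charpoly_inv hf hn hx]
    rw [hMi]
    apply eig_iff.2
    refine ⟨v, hv, ?_⟩
    have h2 : (((x⁻¹ : GL ι F) : Matrix ι ι F).map (algebraMap F K)) * M = 1 := by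
      rw [hM]
      change (algebraMap F K).mapMatrix _ * (algebraMap F K).mapMatrix _ = 1
      rw [← map_mul, ← Units.val_mul, inv_mul_cancel, Units.val_one, map_one]
    have h3 : (((x⁻¹ : GL ι F) : Matrix ι ι F).map (algebraMap F K)) *ᵥ (c • v) = v := by
      rw [← h, Matrix.mulVec_mulVec, h2, Matrix.one_mulVec]
    rw [Matrix.mulVec_smul] at h3
    rw [eq_inv_smul_iff₀ hc0]
    exact h3
  obtain ⟨z, hz, hz1⟩ : ∃ z : K, M.charpoly.IsRoot z ∧ z ≠ 1 := by
    by_contra hcon
    push Not at hcon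
    exact hM1 (eq_one_of_eig hMs hsp hcon)
  have hzs : z ^ s = 1 := by
    obtain ⟨v, hv, h⟩ := eig_iff.1 hz
    have h1 := eig_pow h s
    rw [hMs, Matrix.one_mulVec] at h1
    have h2 : (z ^ s - 1) • v = 0 := by rw [sub_smul, one_smul, ← h1, sub_self]
    rcases smul_eq_zero.1 h2 with h3 | h3
    · exact sub_eq_zero.1 h3
    · exact absurd h3 hv
  have : Fact s.Prime := ⟨hs⟩
  have hord : orderOf z = s := orderOf_eq_prime hzs hz1
  have hpow : ∀ j, M.charpoly.IsRoot (z ^ Fintype.card F ^ j) := by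
    intro j
    induction j with
    | zero => rw [pow_zero, pow_one]; exact hz
    | succ j ih =>
      rw [pow_succ, pow_mul]
      exact hsq _ ih
  have hmod : ∀ a : ℕ, z ^ a = z ^ (a % s) := fun a => by rw [← hord, pow_mod_orderOf]
  have hall : ∀ k < s, 0 < k → M.charpoly.IsRoot (z ^ k) := by
    intro k hk hk0
    obtain ⟨j, hj | hj⟩ := ho k hk hk0
    · rw [← hj, ← hmod]
      exact hpow j
    · rw [← hj, ← hmod]
      have h1 := hinv _ (hpow j)
      have h2 : (z ^ Fintype.card F ^ j)⁻¹ = z ^ ((s - 1) * Fintype.card F ^ j) := by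
        apply inv_eq_of_mul_eq_one_right
        rw [← pow_add]
        have h3 : Fintype.card F ^ j + (s - 1) * Fintype.card F ^ j = s * Fintype.card F ^ j := by
          obtain ⟨t, rfl⟩ : ∃ t, s = t + 1 := ⟨s - 1, by have := hs.pos; omega⟩
          rw [Nat.add_sub_cancel]
          ring
        rw [h3, pow_mul, hzs, one_pow]
      rw [← h2]
      exact h1
  -- counting
  have hne : M.charpoly ≠ 0 := M.charpoly_monic.ne_zero
  have hsub : (Finset.Ico 1 s).image (fun k => z ^ k) ⊆ M.charpoly.roots.toFinset := by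
    intro c hc
    obtain ⟨k, hk, rfl⟩ := Finset.mem_image.1 hc
    rw [Finset.mem_Ico] at hk
    rw [Multiset.mem_toFinset, mem_roots hne]
    exact hall k hk.2 hk.1
  have hinj : Set.InjOn (fun k => z ^ k) (Finset.Ico 1 s : Set ℕ) := by
    intro a ha b hb hab
    rw [Finset.coe_Ico, Set.mem_Ico] at ha hb
    have hprim : IsPrimitiveRoot z s := hord ▸ IsPrimitiveRoot.orderOf z
    exact hprim.pow_inj ha.2 hb.2 hab
  have h1 : ((Finset.Ico 1 s).image (fun k => z ^ k)).card = s - 1 := by
    rw [Finset.card_image_of_injOn hinj, Nat.card_Ico]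
  have h2 := Finset.card_le_card hsub
  have h3 : M.charpoly.roots.toFinset.card ≤ M.charpoly.roots.card := Multiset.toFinset_card_le _
  have h4 : M.charpoly.roots.card ≤ M.charpoly.natDegree := card_roots' _
  have h5 : M.charpoly.natDegree = Fintype.card ι := M.charpoly_natDegree_eq_dim
  rw [h1] at h2
  exact h2.trans (h3.trans (h4.trans h5.le))

/-- **Dimension of a self-dual module for an element of prime order.** -/
theorem le_card_of_orbit [Fintype F] {f : (ι → F) → (ι → F) → F} (hf : IsBilinearForm f)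
    (hn : IsNondegenerateForm f) {x : GL ι F}
    (hx : ∀ u v, f ((x : Matrix ι ι F) *ᵥ u) ((x : Matrix ι ι F) *ᵥ v) = f u v) {s : ℕ} (hs : s.Prime)
    (hsF : (s : F) ≠ 0) (hx1 : x ≠ 1) (hxs : x ^ s = 1)
    (ho : ∀ k < s, 0 < k → ∃ j, Fintype.card F ^ j % s = k ∨ (s - 1) * Fintype.card F ^ j % s = k) :
    s - 1 ≤ Fintype.card ι :=
  le_card_aux (AlgebraicClosure F) hf hn hx hs hsF hx1 hxs ho

end Cfsg.Agent.H840.EP
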